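import Cfsg.Agent.Lib.Helper34.Radical
import Cfsg.Agent.S1954

set_option autoImplicit false

namespace Cfsg.Agent.Lib.Helper34

open Cfsg
open scoped Pointwise

variable {G : Type*} [Group G]

/-- `N_N(V)` controls strong fusion in `T` with respect to `N`. -/
def Ctl (N T V : Subgroup G) : Prop :=
  ∀ A : Subgroup G, A ≤ T → ∀ n ∈ N, A.map (MulAut.conj n).toMonoidHom ≤ T →
    ∃ h ∈ N ⊓ Subgroup.normalizer (V : Set G), ∃ c ∈ N ⊓ Subgroup.centralizer (A : Set G), n = h * c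

theorem Ctl.le_normalizer {N T V : Subgroup G} (h : Ctl N T V) (hVT : V ≤ T) (hTN : T ≤ N) :
    T ≤ Subgroup.normalizer (V : Set G) := by
  intro x hx
  obtain ⟨h₁, hh₁, c, hc, e⟩ := h T le_rfl x (hTN hx) (map_conj_eq_self_of_mem hx).le
  rw [e]
  exact Subgroup.mul_mem _ (Subgroup.mem_inf.mp hh₁).2 (Subgroup.centralizer_le_normalizer _
    (Subgroup.centralizer_le (SetLike.coe_subset_coe.mpr hVT) (Subgroup.mem_inf.mp hc).2))

theorem Ctl.subgroupOf {N T V : Subgroup G} (h : Ctl N T V) (L : Subgroup G) (hN : N ≤ L) :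
    Ctl (N.subgroupOf L) (T.subgroupOf L) (V.subgroupOf L) := by
  intro A hA n hn hAn
  have hA' : A.map L.subtype ≤ T := by
    rintro _ ⟨a, ha, rfl⟩
    exact Subgroup.mem_subgroupOf.mp (hA ha)
  have hAn' : (A.map L.subtype).map (MulAut.conj (n : G)).toMonoidHom ≤ T := by
    rintro _ ⟨_, ⟨a, ha, rfl⟩, rfl⟩
    have h1 : n * a * n⁻¹ ∈ T.subgroupOf L := hAn ⟨a, ha, by simp [MulAut.conj_apply]⟩
    simpa [MulAut.conj_apply] using Subgroup.mem_subgroupOf.mp h1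
  obtain ⟨h₁, hh₁, c, hc, e⟩ := h _ hA' n (Subgroup.mem_subgroupOf.mp hn) hAn'
  obtain ⟨hh₁N, hh₁V⟩ := Subgroup.mem_inf.mp hh₁
  obtain ⟨hcN, hcA⟩ := Subgroup.mem_inf.mp hc
  refine ⟨⟨h₁, hN hh₁N⟩, Subgroup.mem_inf.mpr ⟨Subgroup.mem_subgroupOf.mpr hh₁N, ?_⟩,
    ⟨c, hN hcN⟩, Subgroup.mem_inf.mpr ⟨Subgroup.mem_subgroupOf.mpr hcN, ?_⟩, Subtype.ext e⟩
  · rw [Subgroup.mem_normalizer_iff]
    intro x
    exact Subgroup.mem_normalizer_iff.mp hh₁V x
  · rw [Subgroup.mem_centralizer_iff]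
    intro a ha
    exact Subtype.ext (Subgroup.mem_centralizer_iff.mp hcA a ⟨a, ha, rfl⟩)

theorem Ctl.of_subgroupOf [Finite G] {N T V L : Subgroup G} (hN : N ≤ L) (hT : T ≤ L) (hV : V ≤ L)
    (h : Ctl (N.subgroupOf L) (T.subgroupOf L) (V.subgroupOf L)) : Ctl N T V := by
  intro A hA n hn hAn
  obtain ⟨h₁, hh₁, c, hc, e⟩ := h (A.subgroupOf L)
    (fun a ha => Subgroup.mem_subgroupOf.mpr (hA (Subgroup.mem_subgroupOf.mp ha)))
    ⟨n, hN hn⟩ (Subgroup.mem_subgroupOf.mpr hn) (by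
      rintro _ ⟨a, ha, rfl⟩
      exact Subgroup.mem_subgroupOf.mpr (hAn ⟨a, Subgroup.mem_subgroupOf.mp ha, rfl⟩))
  obtain ⟨hh₁N, hh₁V⟩ := Subgroup.mem_inf.mp hh₁
  obtain ⟨hcN, hcA⟩ := Subgroup.mem_inf.mp hc
  refine ⟨h₁, Subgroup.mem_inf.mpr ⟨Subgroup.mem_subgroupOf.mp hh₁N, ?_⟩, c,
    Subgroup.mem_inf.mpr ⟨Subgroup.mem_subgroupOf.mp hcN, ?_⟩, congrArg Subtype.val e⟩
  · apply mem_normalizer_of_conj_le
    rintro _ ⟨v, hv, rfl⟩
    exact (Subgroup.mem_normalizer_iff.mp hh₁V ⟨v, hV hv⟩).mp (Subgroup.mem_subgroupOf.mpr hv)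
  · rw [Subgroup.mem_centralizer_iff]
    intro a ha
    exact congrArg Subtype.val (Subgroup.mem_centralizer_iff.mp hcA ⟨a, hT (hA ha)⟩
      (Subgroup.mem_subgroupOf.mpr ha))

/-- relative form of S1954. -/
theorem Ctl.lift [Finite G] {p : ℕ} [Fact p.Prime] {L N P V : Subgroup G}
    (hP : Cfsg.Agent.Lib.Helper33.RelSyl p P L) (hNL : N ≤ L)
    (hLN : L ≤ Subgroup.normalizer (N : Set G)) (hV : V ≤ P ⊓ N) (h : Ctl N (P ⊓ N) V) :
    ∃ W : Subgroup G, V ≤ W ∧ W ≤ P ⊓ N ∧ Ctl L P W := by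
  haveI : (N.subgroupOf L).Normal := (Subgroup.normal_subgroupOf_iff_le_normalizer hNL).mpr hLN
  let P' : Sylow p ↥L := hP.toSylow
  have e1 : (P' : Subgroup ↥L) ⊓ N.subgroupOf L = (P ⊓ N).subgroupOf L := by
    ext x
    simp only [Subgroup.mem_inf, Subgroup.mem_subgroupOf]
    rfl
  have h' := h.subgroupOf L hNL
  have hV' : V.subgroupOf L ≤ (P ⊓ N).subgroupOf L :=
    fun v hv => Subgroup.mem_subgroupOf.mpr (hV (Subgroup.mem_subgroupOf.mp hv))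
  have hTN' : (P ⊓ N).subgroupOf L ≤ N.subgroupOf L :=
    fun v hv => Subgroup.mem_subgroupOf.mpr (Subgroup.mem_inf.mp (Subgroup.mem_subgroupOf.mp hv)).2
  have hn' := h'.le_normalizer hV' hTN'
  set W' : Subgroup ↥L := Subgroup.closure
    (⋃ x ∈ Subgroup.normalizer ((((P' : Subgroup ↥L) ⊓ N.subgroupOf L : Subgroup ↥L)) : Set ↥L),
      (((V.subgroupOf L).map (MulAut.conj x).toMonoidHom : Subgroup ↥L) : Set ↥L)) with hW'
  have res := Cfsg.Agent.S1954.result (N.subgroupOf L) P' (V.subgroupOf L) (by rw [e1]; exact hV')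
    (by
      intro x hx
      rw [e1] at hx
      exact map_conj_eq_self_of_mem_normalizer (hn' hx))
    (by rw [e1]; exact h') W' hW'
  have hVW' : V.subgroupOf L ≤ W' := by
    intro v hv
    apply Subgroup.subset_closure
    refine Set.mem_biUnion (Subgroup.one_mem _) ?_
    rw [map_conj_one]
    exact hv
  have hW'T : W' ≤ (P ⊓ N).subgroupOf L := by
    rw [hW', Subgroup.closure_le]
    intro v hv
    simp only [Set.mem_iUnion] at hv
    obtain ⟨x, hx, hv⟩ := hv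
    rw [e1] at hx
    have h2 : (V.subgroupOf L).map (MulAut.conj x).toMonoidHom ≤ (P ⊓ N).subgroupOf L :=
      (Subgroup.map_mono hV').trans_eq (map_conj_eq_self_of_mem_normalizer hx)
    exact h2 hv
  have hVL : V ≤ L := hV.trans (inf_le_right.trans hNL)
  refine ⟨W'.map L.subtype, ?_, ?_, ?_⟩
  · intro v hv
    exact ⟨⟨v, hVL hv⟩, hVW' (Subgroup.mem_subgroupOf.mpr hv), rfl⟩
  · rintro _ ⟨w, hw, rfl⟩
    exact Subgroup.mem_subgroupOf.mp (hW'T hw)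
  · apply Ctl.of_subgroupOf le_rfl hP.1 (Subgroup.map_subtype_le _)
    have e2 : (W'.map L.subtype).subgroupOf L = W' :=
      Subgroup.comap_map_eq_self_of_injective (Subgroup.subtype_injective _) _
    rw [e2]
    intro A hA n _ hAn
    obtain ⟨h₁, hh₁, c, hc, e⟩ := res A hA n hAn
    exact ⟨h₁, Subgroup.mem_inf.mpr ⟨by simp, hh₁⟩, c, Subgroup.mem_inf.mpr ⟨by simp, hc⟩, e⟩

end Cfsg.Agent.Lib.Helper34
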