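import Cfsg.Agent.Lib.Helper34.Ctl

set_option autoImplicit false

namespace Cfsg.Agent.Lib.Helper34

open Cfsg
open scoped Pointwise

variable {G : Type*} [Group G]

/-- the elements of `G` acting on `U` like an element of `N_Y(U)`. -/
def actLike (Y U : Subgroup G) : Subgroup G := Cfsg.Agent.S1954.actSub Y U

theorem mem_actLike {Y U : Subgroup G} {x : G} : x ∈ actLike Y U ↔
    ∃ w ∈ Y, w ∈ Subgroup.normalizer (U : Set G) ∧ ∀ u ∈ U, x * u * x⁻¹ = w * u * w⁻¹ := Iff.rfl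

theorem actLike_conj {Y U : Subgroup G} {x m c : G} (hx : x ∈ actLike Y U)
    (hmW : m ∈ Subgroup.normalizer (Y : Set G)) (hmU : m ∈ Subgroup.normalizer (U : Set G))
    (hc : c ∈ Subgroup.centralizer (U : Set G)) :
    (m * c) * x * (m * c)⁻¹ ∈ actLike Y U := Cfsg.Agent.S1954.actSub_conj hx hmW hmU hc

theorem actLike_pow {p : ℕ} {Y U : Subgroup G} {x : G} (hx : x ∈ actLike Y U)
    (hY : ∀ y ∈ Y, y ∈ Subgroup.normalizer (U : Set G) →
      ∃ k : ℕ, y ^ p ^ k ∈ Subgroup.centralizer (U : Set G)) :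
    ∃ k : ℕ, x ^ p ^ k ∈ Subgroup.centralizer (U : Set G) := by
  obtain ⟨w, hw, hn, h⟩ := hx
  have key : ∀ j : ℕ, ∀ u ∈ U, x ^ j * u * (x ^ j)⁻¹ = w ^ j * u * (w ^ j)⁻¹ := by
    intro j
    induction j with
    | zero => intro u _; simp
    | succ j ih =>
      intro u hu
      have hu2 : w * u * w⁻¹ ∈ U := (Subgroup.mem_normalizer_iff.mp hn u).mp hu
      calc x ^ (j+1) * u * (x ^ (j+1))⁻¹ = x ^ j * (x * u * x⁻¹) * (x ^ j)⁻¹ := by
            rw [pow_succ]; group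
        _ = x ^ j * (w * u * w⁻¹) * (x ^ j)⁻¹ := by rw [h u hu]
        _ = w ^ j * (w * u * w⁻¹) * (w ^ j)⁻¹ := ih _ hu2
        _ = w ^ (j+1) * u * (w ^ (j+1))⁻¹ := by rw [pow_succ]; group
  obtain ⟨k, hk⟩ := hY w hw hn
  refine ⟨k, ?_⟩
  rw [Subgroup.mem_centralizer_iff] at hk ⊢
  intro u hu
  have h1 := key (p ^ k) u hu
  have h2 : w ^ p ^ k * u * (w ^ p ^ k)⁻¹ = u := by rw [← hk u hu]; group
  rw [h2] at h1
  calc u * x ^ p ^ k = (x ^ p ^ k * u * (x ^ p ^ k)⁻¹) * x ^ p ^ k := by rw [h1]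
    _ = x ^ p ^ k * u := by group

variable [Finite G] {p : ℕ} [Fact p.Prime]

/-- Alperin–Goldschmidt criterion for control of strong fusion. -/
theorem ctl_of_AGFam (P : Sylow p G) (X : Subgroup G)
    (h : ∀ U ∈ Cfsg.Agent.Lib.Helper33.AGFam p (P : Subgroup G),
      ∀ x ∈ Subgroup.normalizer (U : Set G), ∃ y ∈ X, ∀ u ∈ U, y * u * y⁻¹ = x * u * x⁻¹) :
    ∀ A : Subgroup G, A ≤ (P : Subgroup G) → ∀ g : G,
      A.map (MulAut.conj g).toMonoidHom ≤ (P : Subgroup G) →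
      ∃ h ∈ X, ∃ c ∈ Subgroup.centralizer (A : Set G), g = h * c := by
  intro A hA g hg
  obtain ⟨g', hchain, hg'⟩ := Cfsg.Agent.Lib.Helper33.alperin_goldschmidt P (A : Set G) g hA (by
    rintro _ ⟨a, ha, rfl⟩
    exact hg ⟨a, ha, rfl⟩)
  obtain ⟨x, hx, hxa⟩ : Cfsg.Agent.Lib.Helper33.Good1 X (A : Set G) g' :=
    (Cfsg.Agent.Lib.Helper33.fusionRel_good1 _).of_stepChain
      (fun B x ⟨U, hU, hx, hBU⟩ => by
        obtain ⟨y, hy, hyu⟩ := h U hU x hx
        exact ⟨y, hy, fun a ha => hyu a (hBU ha)⟩) hchain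
  refine ⟨x, hx, x⁻¹ * g, ?_, by group⟩
  rw [Subgroup.mem_centralizer_iff]
  intro a ha
  have h8 : x * a * x⁻¹ = g * a * g⁻¹ := (hxa a ha).trans (hg' a ha)
  calc a * (x⁻¹ * g) = x⁻¹ * (x * a * x⁻¹) * g := by group
    _ = x⁻¹ * (g * a * g⁻¹) * g := by rw [h8]
    _ = x⁻¹ * g * a := by group

/-- "Radical" property of the members of the Alperin–Goldschmidt family, factorised form. -/
theorem exists_mul_of_AGFam {S U : Subgroup G} (hU : U ∈ Cfsg.Agent.Lib.Helper33.AGFam p S)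
    (X : Subgroup G) (hXM : X ≤ Subgroup.normalizer (U : Set G))
    (hXn : ∀ m ∈ Subgroup.normalizer (U : Set G), ∀ x ∈ X, m * x * m⁻¹ ∈ X)
    (hX : ∀ x ∈ X, ∃ k : ℕ, x ^ p ^ k ∈ Subgroup.centralizer (U : Set G))
    {y : G} (hy : y ∈ X) : ∃ a ∈ Subgroup.centralizer (U : Set G), ∃ u ∈ U, y = a * u := by
  obtain ⟨hfn, hcen, hdp⟩ := hU
  set M := Subgroup.normalizer (U : Set G) with hM
  have hXnorm : (X.subgroupOf M).Normal := by
    refine ⟨fun x hx m => ?_⟩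
    exact Subgroup.mem_subgroupOf.mpr (hXn m m.2 x (Subgroup.mem_subgroupOf.mp hx))
  have hXp : IsPGroup p ((X.subgroupOf M).map (QuotientGroup.mk' (pPrimeCore p M))) := by
    rintro ⟨_, x, hx, rfl⟩
    obtain ⟨k, hk⟩ := hX x (Subgroup.mem_subgroupOf.mp hx)
    obtain ⟨x', hx', hxx'⟩ := hcen hk
    have hx'' : x ^ p ^ k ∈ pPrimePCore p M := by
      have : x' = x ^ p ^ k := Subtype.ext (by simpa using hxx')
      rwa [← this]
    obtain ⟨j, hj⟩ := (Cfsg.Agent.Lib.Lead.pCore_isPGroup p (M ⧸ pPrimeCore p M)) ⟨_, hx''⟩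
    refine ⟨k + j, Subtype.ext ?_⟩
    have hj' := congrArg Subtype.val hj
    simp only [Subgroup.coe_pow, Subgroup.coe_one, map_pow] at hj' ⊢
    rw [pow_add, pow_mul]
    exact hj'
  have hXle : X.subgroupOf M ≤ pPrimePCore p M := by
    intro x hx
    exact Cfsg.Agent.Lib.Lead.le_pCore
      (Subgroup.Normal.map hXnorm _ (QuotientGroup.mk'_surjective _)) hXp
      (Subgroup.mem_map_of_mem _ hx)
  have hy1 : y ∈ (pPrimePCore p M).map M.subtype :=
    ⟨⟨y, hXM hy⟩, hXle (Subgroup.mem_subgroupOf.mpr hy), rfl⟩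
  obtain ⟨h1, h2, h3, h4, h5⟩ := hdp
  rw [← h5] at hy1
  obtain ⟨a, ha, u, hu, rfl⟩ := exists_mul_of_mem_sup_of_commute h3 hy1
  refine ⟨a, ?_, u, hu, rfl⟩
  rw [Subgroup.mem_centralizer_iff]
  intro v hv
  exact (h3 a ha v hv).symm

/-- a normal subgroup `W` of `P` lies in the member `U` of the Alperin–Goldschmidt family as soon as
`N_W(U)` lies in an `N_G(U)`-invariant subgroup of `N_G(U)` inducing a `p`-group on `U`. -/
theorem le_of_AGFam (P : Sylow p G) {U W : Subgroup G}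
    (hU : U ∈ Cfsg.Agent.Lib.Helper33.AGFam p (P : Subgroup G)) (hWP : W ≤ (P : Subgroup G))
    (hPW : (P : Subgroup G) ≤ Subgroup.normalizer (W : Set G))
    (X : Subgroup G) (hXM : X ≤ Subgroup.normalizer (U : Set G))
    (hXn : ∀ m ∈ Subgroup.normalizer (U : Set G), ∀ x ∈ X, m * x * m⁻¹ ∈ X)
    (hX : ∀ x ∈ X, ∃ k : ℕ, x ^ p ^ k ∈ Subgroup.centralizer (U : Set G))
    (hWX : W ⊓ Subgroup.normalizer (U : Set G) ≤ X) : W ≤ U := by
  have hUP : U ≤ (P : Subgroup G) := hU.1.1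
  have hWp : IsPGroup p W := P.2.to_le hWP
  have hY : W ⊓ Subgroup.normalizer (U : Set G) ≤ U := by
    intro y hy
    obtain ⟨k, hk⟩ := hWp ⟨y, (Subgroup.mem_inf.mp hy).1⟩
    exact mem_of_AGFam hU X hXM hXn hX (hWX hy) (k := k) (congrArg Subtype.val hk)
  have hUW : U ≤ Subgroup.normalizer (W : Set G) := hUP.trans hPW
  have hD : U = U ⊔ W := by
    refine eq_of_inf_normalizer_le (p := p) (P.2.to_le (sup_le hUP hWP)) le_sup_left ?_
    intro d hd
    obtain ⟨hd1, hd2⟩ := Subgroup.mem_inf.mp hd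
    rw [← SetLike.mem_coe, Subgroup.coe_mul_of_left_le_normalizer_right U W hUW,
      Set.mem_mul] at hd1
    obtain ⟨u, hu, w, hw, rfl⟩ := hd1
    refine U.mul_mem hu (hY (Subgroup.mem_inf.mpr ⟨hw, ?_⟩))
    have e : w = u⁻¹ * (u * w) := by group
    rw [e]
    exact Subgroup.mul_mem _ (Subgroup.inv_mem _ (Subgroup.le_normalizer hu)) hd2
  rw [hD]
  exact le_sup_right

/-- a subgroup whose normalizer controls strong fusion lies in every member of the
Alperin–Goldschmidt family. -/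
theorem Ctl.le_of_mem_AGFam (P : Sylow p G) {U W : Subgroup G} (h : Ctl ⊤ (P : Subgroup G) W)
    (hWP : W ≤ (P : Subgroup G))
    (hU : U ∈ Cfsg.Agent.Lib.Helper33.AGFam p (P : Subgroup G)) : W ≤ U := by
  have hUP : U ≤ (P : Subgroup G) := hU.1.1
  have hWp : IsPGroup p W := P.2.to_le hWP
  refine le_of_AGFam P hU hWP (h.le_normalizer hWP le_top)
    (Subgroup.normalizer (U : Set G) ⊓ actLike W U) inf_le_left ?_ ?_ ?_
  · intro m hm x hx
    obtain ⟨hx1, hx2⟩ := Subgroup.mem_inf.mp hx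
    refine Subgroup.mem_inf.mpr ⟨Subgroup.mul_mem _ (Subgroup.mul_mem _ hm hx1)
      (Subgroup.inv_mem _ hm), ?_⟩
    obtain ⟨h₁, hh₁, c, hc, rfl⟩ := h U hUP m (Subgroup.mem_top _)
      ((map_conj_eq_self_of_mem_normalizer hm).le.trans hUP)
    refine actLike_conj hx2 (Subgroup.mem_inf.mp hh₁).2 ?_ (Subgroup.mem_inf.mp hc).2
    have e : h₁ = h₁ * c * c⁻¹ := by group
    rw [e]
    exact Subgroup.mul_mem _ hm (Subgroup.inv_mem _
      (Subgroup.centralizer_le_normalizer _ (Subgroup.mem_inf.mp hc).2))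
  · intro x hx
    refine actLike_pow (Subgroup.mem_inf.mp hx).2 ?_
    intro y hy _
    obtain ⟨k, hk⟩ := hWp ⟨y, hy⟩
    refine ⟨k, ?_⟩
    have hk' : y ^ p ^ k = 1 := congrArg Subtype.val hk
    rw [hk']
    exact Subgroup.one_mem _
  · intro y hy
    obtain ⟨hy1, hy2⟩ := Subgroup.mem_inf.mp hy
    exact Subgroup.mem_inf.mpr ⟨hy2, y, hy1, hy2, fun _ _ => rfl⟩

end Cfsg.Agent.Lib.Helper34
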