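import Cfsg.Agent.Lib.Helper34.Ctl2
import Cfsg.Prelude.Def_EvenType

set_option autoImplicit false

namespace Cfsg.Agent.Lib.Helper34

open Cfsg
open scoped Pointwise

/-- control of strong fusion lifts through a central `p`-subgroup. -/
theorem ctl_of_central_quotient {Y : Type*} [Group Y] [Finite Y] {p : ℕ} [Fact p.Prime]
    (Z : Subgroup Y) [Z.Normal] (hZc : Z ≤ Subgroup.center Y) (hZp : IsPGroup p Z) (R : Sylow p Y)
    (Vb : Subgroup (Y ⧸ Z))
    (hVn : (R : Subgroup Y).map (QuotientGroup.mk' Z) ≤ Subgroup.normalizer (Vb : Set (Y ⧸ Z)))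
    (hctl : ∀ A : Set (Y ⧸ Z), A ⊆ ((R : Subgroup Y).map (QuotientGroup.mk' Z) : Subgroup (Y ⧸ Z)) →
      ControlsStrongFusionOf (Subgroup.normalizer (Vb : Set (Y ⧸ Z)))
        ((R : Subgroup Y).map (QuotientGroup.mk' Z)) A) :
    Ctl ⊤ (R : Subgroup Y) (Vb.comap (QuotientGroup.mk' Z)) := by
  set π := QuotientGroup.mk' Z with hπ
  have hnorm : ∀ y : Y, π y ∈ Subgroup.normalizer (Vb : Set (Y ⧸ Z)) →
      y ∈ Subgroup.normalizer ((Vb.comap π : Subgroup Y) : Set Y) := by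
    intro y hy
    rw [Subgroup.mem_normalizer_iff]
    intro x
    rw [Subgroup.mem_comap, Subgroup.mem_comap, map_mul, map_mul, map_inv]
    exact Subgroup.mem_normalizer_iff.mp hy (π x)
  have hcomm : ∀ z ∈ Z, ∀ y : Y, y * z * y⁻¹ = z := by
    intro z hz y
    have := Subgroup.mem_center_iff.mp (hZc hz) y
    rw [this]; group
  have main := ctl_of_AGFam R (Subgroup.normalizer ((Vb.comap π : Subgroup Y) : Set Y)) (by
    intro U hU x hx
    have hUR : U ≤ (R : Subgroup Y) := hU.1.1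
    have hZU : Z ≤ U := by
      intro z hz
      obtain ⟨k, hk⟩ := hZp ⟨z, hz⟩
      refine mem_of_AGFam hU Z ?_ ?_ ?_ hz (k := k) (congrArg Subtype.val hk)
      · intro w hw
        apply Subgroup.centralizer_le_normalizer
        rw [Subgroup.mem_centralizer_iff]
        intro u _
        exact Subgroup.mem_center_iff.mp (hZc hw) u
      · intro m _ w hw
        rw [hcomm w hw m]; exact hw
      · intro w hw
        refine ⟨0, ?_⟩
        rw [pow_zero, pow_one, Subgroup.mem_centralizer_iff]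
        intro u _
        exact Subgroup.mem_center_iff.mp (hZc hw) u
    -- control in the quotient
    have hA : (π '' (U : Set Y)) ⊆ ((R : Subgroup Y).map π : Subgroup (Y ⧸ Z)) := by
      rintro _ ⟨u, hu, rfl⟩
      exact ⟨u, hUR hu, rfl⟩
    obtain ⟨hb, hhb, hact⟩ := (hctl _ hA).2 (π x) (by
      rintro _ ⟨_, ⟨u, hu, rfl⟩, rfl⟩
      refine ⟨x * u * x⁻¹, hUR ((Subgroup.mem_normalizer_iff.mp hx u).mp hu), ?_⟩
      rw [map_mul, map_mul, map_inv])
    obtain ⟨h, rfl⟩ := QuotientGroup.mk'_surjective Z hb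
    -- the difference `d`
    set D : Subgroup Y := Subgroup.normalizer (U : Set Y) ⊓
      (Subgroup.centralizer ((U.map π : Subgroup (Y ⧸ Z)) : Set (Y ⧸ Z))).comap π with hD
    have hDZ : ∀ d : Y, π d ∈ Subgroup.centralizer ((U.map π : Subgroup (Y ⧸ Z)) : Set (Y ⧸ Z)) →
        ∀ u ∈ U, u⁻¹ * (d * u * d⁻¹) ∈ Z := by
      intro d hd u hu
      rw [← QuotientGroup.eq_one_iff]
      have h1 := Subgroup.mem_centralizer_iff.mp hd (π u) ⟨u, hu, rfl⟩
      show π (u⁻¹ * (d * u * d⁻¹)) = 1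
      rw [map_mul, map_mul, map_mul, map_inv, map_inv, ← h1]
      group
    have hdc : π (h⁻¹ * x) ∈ Subgroup.centralizer ((U.map π : Subgroup (Y ⧸ Z)) : Set (Y ⧸ Z)) := by
      rw [Subgroup.mem_centralizer_iff]
      rintro _ ⟨u, hu, rfl⟩
      have h1 := hact (π u) ⟨u, hu, rfl⟩
      rw [map_mul, map_inv]
      calc π u * ((π h)⁻¹ * π x) = (π h)⁻¹ * (π h * π u * (π h)⁻¹) * π x := by group
        _ = (π h)⁻¹ * (π x * π u * (π x)⁻¹) * π x := by rw [h1]
        _ = (π h)⁻¹ * π x * π u := by group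
    have hdD : h⁻¹ * x ∈ D := by
      refine Subgroup.mem_inf.mpr ⟨?_, hdc⟩
      apply mem_normalizer_of_conj_le
      rintro _ ⟨u, hu, rfl⟩
      have h1 := hZU (hDZ _ hdc u hu)
      have h2 := U.mul_mem hu h1
      rw [mul_inv_cancel_left] at h2
      exact h2
    obtain ⟨b, hb⟩ := (IsPGroup.iff_card).mp hZp
    obtain ⟨a, ha, u₀, hu₀, e⟩ := exists_mul_of_AGFam hU D inf_le_left (by
        intro m hm d hd
        obtain ⟨hd1, hd2⟩ := Subgroup.mem_inf.mp hd
        refine Subgroup.mem_inf.mpr ⟨Subgroup.mul_mem _ (Subgroup.mul_mem _ hm hd1)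
          (Subgroup.inv_mem _ hm), ?_⟩
        rw [Subgroup.mem_comap, Subgroup.mem_centralizer_iff]
        rintro _ ⟨u, hu, rfl⟩
        have hu' : m⁻¹ * u * m ∈ U := by
          have := (Subgroup.mem_normalizer_iff.mp (Subgroup.inv_mem _ hm) u).mp hu
          simpa using this
        have h1 := Subgroup.mem_centralizer_iff.mp (Subgroup.mem_comap.mp hd2)
          (π (m⁻¹ * u * m)) ⟨_, hu', rfl⟩
        rw [map_mul, map_mul, map_inv] at h1
        rw [map_mul, map_mul, map_inv]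
        calc π u * (π m * π d * (π m)⁻¹) = π m * (((π m)⁻¹ * π u * π m) * π d) * (π m)⁻¹ := by group
          _ = π m * (π d * ((π m)⁻¹ * π u * π m)) * (π m)⁻¹ := by rw [h1]
          _ = π m * π d * (π m)⁻¹ * π u := by group)
      (by
        intro d hd
        refine ⟨b, ?_⟩
        rw [← hb]
        exact pow_card_mem_centralizer_of_stabilizes (fun z hz => hcomm z hz d)
          (hDZ d (Subgroup.mem_comap.mp (Subgroup.mem_inf.mp hd).2))) hdD
    refine ⟨h * u₀, Subgroup.mul_mem _ (hnorm h hhb) (hnorm u₀ (hVn ⟨u₀, hUR hu₀, rfl⟩)), ?_⟩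
    intro u hu
    have hx' : x = h * (a * u₀) := by rw [← e]; group
    have h1 : a * (u₀ * u * u₀⁻¹) * a⁻¹ = u₀ * u * u₀⁻¹ := by
      rw [← Subgroup.mem_centralizer_iff.mp ha _ (U.mul_mem (U.mul_mem hu₀ hu) (U.inv_mem hu₀))]
      group
    calc h * u₀ * u * (h * u₀)⁻¹ = h * (u₀ * u * u₀⁻¹) * h⁻¹ := by group
      _ = h * (a * (u₀ * u * u₀⁻¹) * a⁻¹) * h⁻¹ := by rw [h1]
      _ = x * u * x⁻¹ := by rw [hx']; group)
  intro A hA n _ hAn
  obtain ⟨h₁, hh₁, c, hc, e⟩ := main A hA n hAn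
  exact ⟨h₁, Subgroup.mem_inf.mpr ⟨Subgroup.mem_top _, hh₁⟩, c,
    Subgroup.mem_inf.mpr ⟨Subgroup.mem_top _, hc⟩, e⟩

end Cfsg.Agent.Lib.Helper34
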