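import Mathlib
import Cfsg.Prelude.Def_ConjugacyFunctors
import Cfsg.Agent.Lib.Helper34.SylowIn

set_option autoImplicit false

/-! # Isomorphism invariant `p`-group functors (`Cfsg.IsCharPFunctor`, `Cfsg.inducedFunctor`) -/

namespace Cfsg.Agent.Lib.Helper34

open Cfsg

universe u

variable {p : ℕ} {W : ∀ (Q : Type u) [Group Q], Subgroup Q}

theorem inducedFunctor_le {G : Type u} [Group G] (P : Subgroup G) :
    inducedFunctor (G := G) W P ≤ P := by
  rintro _ ⟨x, -, rfl⟩
  exact x.2

/-- `W(f(P)) = f(W(P))` if `f` is injective on the finite `p`-subgroup `P`. -/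
theorem inducedFunctor_map_of_injOn (hW : IsCharPFunctor.{u} p W) {G G' : Type u} [Group G]
    [Group G'] (f : G →* G') (P : Subgroup G) [Finite P] (hP : IsPGroup p P)
    (hinj : ∀ x ∈ P, f x = 1 → x = 1) :
    inducedFunctor (G := G') W (P.map f) = (inducedFunctor (G := G) W P).map f := by
  have hi : Function.Injective (f.subgroupMap P) := by
    rw [injective_iff_map_eq_one]
    intro x hx
    apply Subtype.ext
    exact hinj x x.2 (congrArg Subtype.val hx)
  let e : ↥P ≃* ↥(P.map f) := MulEquiv.ofBijective (f.subgroupMap P)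
    ⟨hi, f.subgroupMap_surjective P⟩
  have h1 := hW.2 ↥P ↥(P.map f) hP e
  unfold inducedFunctor
  rw [← h1, Subgroup.map_map, Subgroup.map_map]
  rfl

theorem inducedFunctor_map_of_injective (hW : IsCharPFunctor.{u} p W) {G G' : Type u} [Group G]
    [Group G'] (f : G →* G') (hf : Function.Injective f) (P : Subgroup G) [Finite P]
    (hP : IsPGroup p P) :
    inducedFunctor (G := G') W (P.map f) = (inducedFunctor (G := G) W P).map f :=
  inducedFunctor_map_of_injOn hW f P hP (fun x _ hx => hf (by rw [hx, map_one]))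

theorem normalizer_le_normalizer_inducedFunctor (hW : IsCharPFunctor.{u} p W) {G : Type u}
    [Group G] (P : Subgroup G) [Finite P] (hP : IsPGroup p P) :
    Subgroup.normalizer (P : Set G) ≤
      Subgroup.normalizer ((inducedFunctor (G := G) W P : Subgroup G) : Set G) := by
  intro g hg
  apply mem_normalizer_of_map_conj_eq
  rw [← inducedFunctor_map_of_injective hW _ (MulAut.conj g).injective P hP,
    map_conj_eq_self_of_mem_normalizer hg]

theorem inducedFunctor_ne_bot (hW : IsCharPFunctor.{u} p W) {G : Type u}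
    [Group G] (P : Subgroup G) [Finite P] (hP : IsPGroup p P) (hne : P ≠ ⊥) :
    inducedFunctor (G := G) W P ≠ ⊥ := by
  intro h
  have h1 := hW.1 ↥P hP ((Subgroup.nontrivial_iff_ne_bot P).mpr hne)
  apply h1
  unfold inducedFunctor at h
  rwa [Subgroup.map_eq_bot_iff_of_injective _ P.subtype_injective] at h

theorem inducedFunctor_isPGroup {G : Type u} [Group G] (P : Subgroup G) (hP : IsPGroup p P) :
    IsPGroup p (inducedFunctor (G := G) W P : Subgroup G) :=
  hP.to_le (inducedFunctor_le P)

/-- If `P` is normal so is `W(P)`. -/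
theorem inducedFunctor_normal (hW : IsCharPFunctor.{u} p W) {G : Type u}
    [Group G] (P : Subgroup G) [Finite P] (hP : IsPGroup p P) (hn : P.Normal) :
    (inducedFunctor (G := G) W P).Normal := by
  rw [← Subgroup.normalizer_eq_top_iff, eq_top_iff]
  refine le_trans ?_ (normalizer_le_normalizer_inducedFunctor hW P hP)
  rw [Subgroup.normalizer_eq_top_iff.mpr hn]

end Cfsg.Agent.Lib.Helper34
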