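import Mathlib
import Cfsg.Agent.Lib.Helper83.McBase

set_option autoImplicit false

/-! Piece Q1 of helper83's McLaughlin farm (S5075): `card_eq`, `sym`
(`sym` for the corrected `Sym`, with the hypothesis `u ≠ 0`). -/

namespace Cfsg.Agent.Lib.Helper34.Mc

open Module Cfsg.Agent.Lib.Helper83.Mc

variable {p : ℕ} [Fact p.Prime] {M N : Type*} [AddCommGroup M] [Module (ZMod p) M]
  [AddCommGroup N] [Module (ZMod p) N]
  {B : N →ₗ[ZMod p] M →ₗ[ZMod p] ZMod p} {A : M → N → Prop}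

lemma card_tau_le [Finite N] (S : Sys B A) {w : M} {χ : N} (hA : A w χ) (x : M) :
    {φ | A x φ}.ncard ≤ {φ | A (x + B χ x • w) φ}.ncard := by
  apply Set.ncard_le_ncard_of_injOn (fun φ => φ - B φ w • χ)
  · intro φ hφ
    exact S.refl w χ x φ hA hφ
  · intro φ _ φ' _ h
    simp only at h
    have h1 : B (φ - B φ w • χ) w = B (φ' - B φ' w • χ) w := by rw [h]
    simp only [map_sub, LinearMap.sub_apply, map_smul, LinearMap.smul_apply, S.perp _ _ hA,
      smul_zero, sub_zero] at h1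
    rw [h1] at h
    exact sub_left_injective h

lemma card_tau [Finite N] (S : Sys B A) {w : M} {χ : N} (hA : A w χ) (x : M) :
    {φ | A x φ}.ncard = {φ | A (x + B χ x • w) φ}.ncard := by
  apply le_antisymm (card_tau_le S hA x)
  have h := card_tau_le S (S.negl hA) (x + B χ x • w)
  have e : x + B χ x • w + B χ (x + B χ x • w) • (-w) = x := by
    rw [map_add, map_smul, S.perp _ _ hA, smul_zero, add_zero, smul_neg]
    abel
  rwa [e] at h

lemma card_hyp [Finite N] (S : Sys B A) {u v : M} {φ ψ : N} (h1 : A u φ) (h2 : A v ψ)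
    (h3 : B φ v ≠ 0) (h4 : B ψ u ≠ 0) : {φ | A u φ}.ncard = {φ | A v φ}.ncard := by
  have e1 := card_tau S (S.smulr (B ψ u)⁻¹ h2) u
  have c1 : B ((B ψ u)⁻¹ • ψ) u = 1 := by
    rw [map_smul, LinearMap.smul_apply, smul_eq_mul, inv_mul_cancel₀ h4]
  rw [c1, one_smul] at e1
  have e2 := card_tau S (S.smulr (-(B φ v)⁻¹) h1) (u + v)
  have c2 : B ((-(B φ v)⁻¹) • φ) (u + v) = -1 := by
    rw [map_smul, LinearMap.smul_apply, smul_eq_mul, map_add, S.perp _ _ h1, zero_add, neg_mul,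
      inv_mul_cancel₀ h3]
  rw [c2] at e2
  have e3 : u + v + (-1 : ZMod p) • u = v := by
    rw [neg_smul, one_smul]; abel
  rw [e3] at e2
  exact e1.trans e2

lemma card_step [Finite N] (S : Sys B A) {m : ℕ} (hm : ∀ x, Pt A x → {φ | A x φ}.ncard ≤ m)
    {u w : M} {χ : N} (hum : {φ | A u φ}.ncard = m) (hA : A w χ) (hw : w ≠ 0)
    (hχ : B χ u ≠ 0) : {φ | A w φ}.ncard = m := by
  by_cases h : ∃ φ, A u φ ∧ B φ w ≠ 0
  · obtain ⟨φ, h1, h2⟩ := h
    rw [← hum]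
    exact (card_hyp S h1 hA h2 hχ).symm
  · push Not at h
    exfalso
    have hχ0 : χ ≠ 0 := by
      rintro rfl
      simp at hχ
    have hlt : {φ | A u φ}.ncard < {φ | A w φ}.ncard := by
      apply Set.ncard_lt_ncard _ (Set.toFinite _)
      refine ⟨fun φ hφ => S.club hA hχ hφ (h φ hφ), fun hsub => ?_⟩
      exact hχ (S.perp _ _ (hsub hA))
    have := hm w ⟨hw, χ, hχ0, hA⟩
    omega

lemma card_max [Finite M] [Finite N] (S : Sys B A) :
    ∃ m, ∀ v, Pt A v → {φ | A v φ}.ncard = m := by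
  obtain ⟨u₁, φ₁, hA₁, hu₁, hφ₁⟩ := S.nt
  haveI : Nonempty {u // Pt A u} := ⟨⟨u₁, hu₁, φ₁, hφ₁, hA₁⟩⟩
  obtain ⟨⟨u₀, hu₀⟩, hmax⟩ := Finite.exists_max (fun u : {u // Pt A u} => {φ | A u.1 φ}.ncard)
  set m := {φ | A u₀ φ}.ncard with hmdef
  have hm : ∀ x, Pt A x → {φ | A x φ}.ncard ≤ m := fun x hx => hmax ⟨x, hx⟩
  refine ⟨m, ?_⟩
  set W : Submodule (ZMod p) M := Submodule.span _ {u | Pt A u ∧ {φ | A u φ}.ncard = m} with hW
  have hkill : ∀ χ : N, (∀ u, Pt A u → {φ | A u φ}.ncard = m → B χ u = 0) →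
      ∀ x ∈ W, B χ x = 0 := by
    intro χ hχ x hx
    have : W ≤ LinearMap.ker (B χ) := by
      rw [hW, Submodule.span_le]
      rintro u ⟨h1, h2⟩
      exact hχ u h1 h2
    exact this hx
  have htop : W = ⊤ := by
    rcases S.qirl W (fun w χ hA => by
      by_cases hw : w = 0
      · left; rw [hw]; exact W.zero_mem
      by_cases hk : ∀ u, Pt A u → {φ | A u φ}.ncard = m → B χ u = 0
      · right; exact hkill χ hk
      · left
        push Not at hk
        obtain ⟨u, hu, hum, hχu⟩ := hk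
        have hχ0 : χ ≠ 0 := by
          rintro rfl
          simp at hχu
        exact Submodule.subset_span ⟨⟨hw, χ, hχ0, hA⟩, card_step S hm hum hA hw hχu⟩) with h1 | h1
    · exact h1
    · exfalso
      obtain ⟨χ, hχ⟩ := Pt.not_rad S hu₀
      exact hχ (h1 u₀ (Submodule.subset_span ⟨hu₀, rfl⟩) χ)
  rintro v ⟨hv0, ψ, hψ, hAv⟩
  by_contra hne
  apply hψ
  apply S.r1r v ψ hAv hv0
  intro w
  apply hkill ψ _ w (by rw [htop]; trivial)
  intro u hu hum
  by_contra hψu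
  exact hne (card_step S hm hum hAv hv0 hψu)

theorem card_eq [Finite M] [Finite N] (S : Sys B A) (u v : M) (hu : Pt A u) (hv : Pt A v) :
    {φ | A u φ}.ncard = {φ | A v φ}.ncard := by
  obtain ⟨m, hm⟩ := card_max S
  rw [hm u hu, hm v hv]

/-- `Sym B A` in the corrected form (with `u ≠ 0`). -/
theorem sym [Finite M] [Finite N] (S : Sys B A) :
    ∀ u v φ ψ', u ≠ 0 → A u φ → B φ v ≠ 0 → A v ψ' → ψ' ≠ 0 → ∃ ψ, A v ψ ∧ B ψ u ≠ 0 := by
  intro u v φ ψ' hu0 hAu hφv hAv hψ'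
  by_contra hcon
  push Not at hcon
  have hφ0 : φ ≠ 0 := by
    rintro rfl
    simp at hφv
  have hv0 : v ≠ 0 := by
    rintro rfl
    simp at hφv
  have hlt : {φ | A v φ}.ncard < {φ | A u φ}.ncard := by
    apply Set.ncard_lt_ncard _ (Set.toFinite _)
    refine ⟨fun ψ hψ => S.club hAu hφv hψ (hcon ψ hψ), fun hsub => ?_⟩
    exact hφv (S.perp _ _ (hsub hAu))
  have := card_eq S u v ⟨hu0, φ, hφ0, hAu⟩ ⟨hv0, ψ', hψ', hAv⟩
  omega

end Cfsg.Agent.Lib.Helper34.Mc
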