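import Mathlib
import Cfsg.Agent.Lib.Helper83.McBase

set_option autoImplicit false

/-! Piece Q2b of helper83's McLaughlin farm (S5075): `add_mem`. -/

namespace Cfsg.Agent.Lib.Helper34.Mc

open Module Cfsg.Agent.Lib.Helper83.Mc

variable {p : ℕ} [Fact p.Prime] {M N : Type*} [AddCommGroup M] [Module (ZMod p) M]
  [AddCommGroup N] [Module (ZMod p) N]
  {B : N →ₗ[ZMod p] M →ₗ[ZMod p] ZMod p} {A : M → N → Prop}

lemma add_S2 (S : Sys B A) {u v : M} {φ ψ : N} (h1 : A u φ) (h2 : A v ψ) (h3 : B φ v ≠ 0)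
    (h4 : B ψ u ≠ 0) : Pt A (u + v) := by
  have h := S.refl v ((B ψ u)⁻¹ • ψ) u φ (S.smulr _ h2) h1
  have e1 : B ((B ψ u)⁻¹ • ψ) u = 1 := by
    rw [map_smul, LinearMap.smul_apply, smul_eq_mul, inv_mul_cancel₀ h4]
  rw [e1, one_smul] at h
  refine ⟨?_, _, ?_, h⟩
  · intro h0
    have : B φ (u + v) = 0 := by rw [h0, map_zero]
    rw [map_add, S.perp _ _ h1, zero_add] at this
    exact h3 this
  · intro h0
    have : B (φ - B φ v • (B ψ u)⁻¹ • ψ) u = 0 := by rw [h0]; simp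
    rw [map_sub, LinearMap.sub_apply, S.perp _ _ h1, map_smul, LinearMap.smul_apply, e1] at this
    simp at this
    exact h3 this

lemma add_S3a (S : Sys B A) (hs : ∀ u v φ ψ', u ≠ 0 → A u φ → B φ v ≠ 0 → A v ψ' → ψ' ≠ 0 → ∃ ψ, A v ψ ∧ B ψ u ≠ 0) {a b y : M} {ψ : N} (ha : Pt A a) (hb : Pt A b)
    (hy0 : y ≠ 0) (hy : A y ψ) (h1 : B ψ a ≠ 0) (h2 : B ψ b ≠ 0) (h3 : B ψ (a + b) ≠ 0) : Pt A (a + b) := by
  obtain ⟨ha0, φa, hφa, hAa⟩ := ha
  obtain ⟨hb0, φb, hφb, hAb⟩ := hb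
  by_cases hc : ∃ φ, A a φ ∧ B φ b ≠ 0
  · obtain ⟨φ, hφ1, hφ2⟩ := hc
    obtain ⟨β, hβ1, hβ2⟩ := hs a b φ φb ha0 hφ1 hφ2 hAb hφb
    exact add_S2 S hφ1 hβ1 hφ2 hβ2
  · push Not at hc
    obtain ⟨φ, hφ1, hφ2⟩ := hs y a ψ φa hy0 hy h1 hAa hφa
    obtain ⟨β, hβ1, hβ2⟩ := hs y b ψ φb hy0 hy h2 hAb hφb
    have hψy : B ψ y = 0 := S.perp _ _ hy
    have r1 := S.refl y ((B ψ a)⁻¹ • ψ) a φ (S.smulr _ hy) hφ1
    have e1 : B ((B ψ a)⁻¹ • ψ) a = 1 := by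
      rw [map_smul, LinearMap.smul_apply, smul_eq_mul, inv_mul_cancel₀ h1]
    rw [e1, one_smul] at r1
    have r2 := S.refl y ((-(B ψ b)⁻¹) • ψ) b β (S.smulr _ hy) hβ1
    have e2 : B ((-(B ψ b)⁻¹) • ψ) b = -1 := by
      rw [map_smul, LinearMap.smul_apply, smul_eq_mul, neg_mul, inv_mul_cancel₀ h2]
    rw [e2] at r2
    have hβ2ne : β - B β y • (-(B ψ b)⁻¹) • ψ ≠ 0 := by
      intro h0
      have : B (β - B β y • (-(B ψ b)⁻¹) • ψ) b = 0 := by rw [h0]; simp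
      rw [map_sub, LinearMap.sub_apply, S.perp _ _ hβ1, map_smul, LinearMap.smul_apply, e2] at this
      simp at this
      exact hβ2 this
    have hω : B (φ - B φ y • (B ψ a)⁻¹ • ψ) (b + (-1 : ZMod p) • y) ≠ 0 := by
      have : B (φ - B φ y • (B ψ a)⁻¹ • ψ) (b + (-1 : ZMod p) • y)
          = - (B φ y * B ψ (a + b) / B ψ a) := by
        simp only [map_sub, LinearMap.sub_apply, map_smul, LinearMap.smul_apply, map_add,
          smul_eq_mul, hψy, hc φ hφ1]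
        field_simp
        ring
      rw [this]
      exact neg_ne_zero.mpr (div_ne_zero (mul_ne_zero hφ2 h3) h1)
    have ha'0 : a + y ≠ 0 := by
      intro h0
      have : B ψ (a + y) = 0 := by rw [h0, map_zero]
      rw [map_add, hψy, add_zero] at this
      exact h1 this
    obtain ⟨ψ₂, hψ1, hψ2⟩ := hs _ _ _ _ ha'0 r1 hω r2 hβ2ne
    have := add_S2 S r1 hψ1 hω hψ2
    have e3 : a + y + (b + (-1 : ZMod p) • y) = a + b := by
      rw [neg_smul, one_smul]; abel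
    rwa [e3] at this

theorem add_mem (S : Sys B A) (hs : ∀ u v φ ψ', u ≠ 0 → A u φ → B φ v ≠ 0 → A v ψ' → ψ' ≠ 0 → ∃ ψ, A v ψ ∧ B ψ u ≠ 0) (h2 : (2 : ZMod p) ≠ 0)
    (hb : ∀ u v : M, (∃ χ, B χ u ≠ 0) → (∃ χ, B χ v ≠ 0) →
      ∃ y ψ, A y ψ ∧ y ≠ 0 ∧ B ψ u ≠ 0 ∧ B ψ v ≠ 0)
    (u v : M) (hu : Pt A u) (hv : Pt A v) (huv : ∃ χ, B χ (u + v) ≠ 0) : Pt A (u + v) := by
  obtain ⟨y, ψ, hy, hy0, hψu, hψv⟩ := hb u v (Pt.not_rad S hu) (Pt.not_rad S hv)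
  by_cases h : B ψ (u + v) = 0
  swap
  · exact add_S3a S hs hu hv hy0 hy hψu hψv h
  have hd : Pt A (u + -v) := by
    apply add_S3a S hs hu (Pt.neg S hv) hy0 hy hψu
    · rw [map_neg]; exact neg_ne_zero.mpr hψv
    · rw [map_add] at h
      have e : B ψ (u + -v) = 2 * B ψ u := by
        rw [map_add, map_neg]
        linear_combination (-1 : ZMod p) * h
      rw [e]
      exact mul_ne_zero h2 hψu
  obtain ⟨y', ψ', hy', hy'0, hψ', -⟩ := hb (u + v) (u + v) huv huv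
  by_cases hu0 : B ψ' u = 0
  · have hv0 : B ψ' v ≠ 0 := by
      rw [map_add, hu0, zero_add] at hψ'
      exact hψ'
    have e : (u + -v) + (2 : ZMod p) • v = u + v := by
      rw [two_smul]; abel
    have := add_S3a S hs hd (Pt.smul S h2 hv) hy'0 hy' (by
      rw [map_add, map_neg, hu0, zero_add]; exact neg_ne_zero.mpr hv0) (by
      rw [map_smul, smul_eq_mul]; exact mul_ne_zero h2 hv0) (by rw [e]; exact hψ')
    rwa [e] at this
  by_cases hv0 : B ψ' v = 0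
  · have e : -(u + -v) + (2 : ZMod p) • u = u + v := by
      rw [two_smul]; abel
    have := add_S3a S hs (Pt.neg S hd) (Pt.smul S h2 hu) hy'0 hy' (by
      rw [map_neg, map_add, map_neg, hv0, neg_zero, add_zero]; exact neg_ne_zero.mpr hu0) (by
      rw [map_smul, smul_eq_mul]; exact mul_ne_zero h2 hu0) (by rw [e]; exact hψ')
    rwa [e] at this
  · exact add_S3a S hs hu hv hy'0 hy' hu0 hv0 hψ'

end Cfsg.Agent.Lib.Helper34.Mc
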