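import Mathlib
import Cfsg.Agent.Lib.Helper83.McBase

set_option autoImplicit false

/-! Piece Q3 of helper83's McLaughlin farm (S5075): `ndl`, `all_pt`. -/

namespace Cfsg.Agent.Lib.Helper34.Mc

open Module Cfsg.Agent.Lib.Helper83.Mc

variable {p : ℕ} [Fact p.Prime] {M N : Type*} [AddCommGroup M] [Module (ZMod p) M]
  [AddCommGroup N] [Module (ZMod p) N]
  {B : N →ₗ[ZMod p] M →ₗ[ZMod p] ZMod p} {A : M → N → Prop}

lemma top_of_pt (S : Sys B A) (W : Submodule (ZMod p) M) (h : ∀ u, Pt A u → u ∈ W) : W = ⊤ := by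
  rcases S.qirl W (fun w χ hA => by
    by_cases hw : w = 0
    · left; rw [hw]; exact W.zero_mem
    by_cases hχ : χ = 0
    · right; intro x _; rw [hχ]; simp
    · left; exact h w ⟨hw, χ, hχ, hA⟩) with h1 | h1
  · exact h1
  · obtain ⟨u, φ, hA, hu, hφ⟩ := S.nt
    exact absurd (S.r1l u φ hA hφ (h1 u (h u ⟨hu, φ, hφ, hA⟩))) hu

/-- zero together with the centres, when closed under addition. -/
def ptSub (S : Sys B A) (hcl : ∀ u v, Pt A u → Pt A v → u + v = 0 ∨ Pt A (u + v)) :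
    Submodule (ZMod p) M where
  carrier := {x | x = 0 ∨ Pt A x}
  zero_mem' := Or.inl rfl
  add_mem' := by
    rintro a b (rfl | ha) (rfl | hb)
    · left; simp
    · right; simpa using hb
    · right; simpa using ha
    · exact hcl a b ha hb
  smul_mem' := by
    rintro c x (rfl | hx)
    · left; simp
    · by_cases hc : c = 0
      · left; simp [hc]
      · right; exact Pt.smul S hc hx

lemma all_of_closed (S : Sys B A) (hcl : ∀ u v, Pt A u → Pt A v → u + v = 0 ∨ Pt A (u + v)) :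
    ∀ u, u ≠ 0 → Pt A u := by
  intro u hu
  have h := top_of_pt S (ptSub S hcl) (fun x hx => Or.inr hx)
  have hu' : u ∈ ptSub S hcl := by rw [h]; trivial
  rcases hu' with h0 | h0
  · exact absurd h0 hu
  · exact h0

theorem all_pt (S : Sys B A)
    (hadd : ∀ u v, Pt A u → Pt A v → (∃ χ, B χ (u + v) ≠ 0) → Pt A (u + v))
    (hnd : ∀ u, (∀ χ, B χ u = 0) → u = 0) : ∀ u, u ≠ 0 → Pt A u := by
  apply all_of_closed S
  intro u v hu hv
  by_cases h0 : u + v = 0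
  · exact Or.inl h0
  · right
    apply hadd u v hu hv
    by_contra hcon
    push Not at hcon
    exact h0 (hnd _ hcon)

lemma ndl_step3 (S : Sys B A) (hs : ∀ u v φ ψ', u ≠ 0 → A u φ → B φ v ≠ 0 → A v ψ' → ψ' ≠ 0 → ∃ ψ, A v ψ ∧ B ψ u ≠ 0) {u u' y : M} {ψ φ₀ : N} (hu' : Pt A u')
    (hd : ∀ χ, B χ (u - u') = 0) (hy0 : y ≠ 0)
    (h1 : A y ψ) (h2 : B ψ u ≠ 0) (h3 : A u φ₀) (h4 : φ₀ ≠ 0) (h5 : B φ₀ y = 0) : u = u' := by
  have h6 : A y φ₀ := S.club h1 h2 h3 h5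
  have e : ∀ χ, B χ u' = B χ u := fun χ => by
    have := hd χ
    rw [map_sub, sub_eq_zero] at this
    exact this.symm
  obtain ⟨hu'0, φ', hφ', hA'⟩ := hu'
  obtain ⟨φ'', h7, h8⟩ := hs y u' ψ φ' hy0 h1 (by rw [e]; exact h2) hA' hφ'
  have h9 : A u' φ₀ := S.club h7 h8 h6 (by rw [e]; exact S.perp _ _ h3)
  have h10 := S.subl h3 h9
  exact sub_eq_zero.mp (S.r1l _ _ h10 h4 hd)

/-- centres plus radical. -/
def ptRad (S : Sys B A)
    (hadd : ∀ u v, Pt A u → Pt A v → (∃ χ, B χ (u + v) ≠ 0) → Pt A (u + v)) :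
    Submodule (ZMod p) M where
  carrier := {x | ∃ a d, (a = 0 ∨ Pt A a) ∧ (∀ χ, B χ d = 0) ∧ x = a + d}
  zero_mem' := ⟨0, 0, Or.inl rfl, by simp, by simp⟩
  add_mem' := by
    rintro x x' ⟨a, d, ha, hd, rfl⟩ ⟨a', d', ha', hd', rfl⟩
    have hdd : ∀ χ, B χ (d + d') = 0 := fun χ => by rw [map_add, hd, hd', add_zero]
    rcases ha with rfl | ha
    · exact ⟨a', d + d', ha', hdd, by abel⟩
    rcases ha' with rfl | ha'
    · exact ⟨a, d + d', Or.inr ha, hdd, by abel⟩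
    by_cases h : ∃ χ, B χ (a + a') ≠ 0
    · exact ⟨a + a', d + d', Or.inr (hadd a a' ha ha' h), hdd, by abel⟩
    · push Not at h
      exact ⟨0, (a + a') + (d + d'), Or.inl rfl,
        fun χ => by rw [map_add, h, hdd, add_zero], by abel⟩
  smul_mem' := by
    rintro c x ⟨a, d, ha, hd, rfl⟩
    have hcd : ∀ χ, B χ (c • d) = 0 := fun χ => by rw [map_smul, hd, smul_zero]
    by_cases hc : c = 0
    · exact ⟨0, 0, Or.inl rfl, by simp, by simp [hc]⟩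
    rcases ha with rfl | ha
    · exact ⟨0, c • d, Or.inl rfl, hcd, by simp⟩
    · exact ⟨c • a, c • d, Or.inr (Pt.smul S hc ha), hcd, by rw [smul_add]⟩

theorem ndl (S : Sys B A) (hs : ∀ u v φ ψ', u ≠ 0 → A u φ → B φ v ≠ 0 → A v ψ' → ψ' ≠ 0 → ∃ ψ, A v ψ ∧ B ψ u ≠ 0)
    (hadd : ∀ u v, Pt A u → Pt A v → (∃ χ, B χ (u + v) ≠ 0) → Pt A (u + v)) :
    ∀ u, (∀ χ, B χ u = 0) → u = 0 := by
  intro d₀ hd₀
  by_contra hne
  -- Step 1
  have step1 : ∃ u v, Pt A u ∧ Pt A v ∧ u + v ≠ 0 ∧ ∀ χ, B χ (u + v) = 0 := by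
    by_contra hno
    push Not at hno
    have hP := all_of_closed S (fun u v hu hv => by
      by_cases h0 : u + v = 0
      · exact Or.inl h0
      · right
        obtain ⟨χ, hχ⟩ := hno u v hu hv h0
        exact hadd u v hu hv ⟨χ, hχ⟩) d₀ hne
    obtain ⟨χ, hχ⟩ := Pt.not_rad S hP
    exact hχ (hd₀ χ)
  obtain ⟨u, v, hu, hv, huv0, huvD⟩ := step1
  -- Step 2
  obtain ⟨u', hu', hdne, hd⟩ : ∃ u', Pt A u' ∧ u ≠ u' ∧ ∀ χ, B χ (u - u') = 0 := by
    refine ⟨-v, Pt.neg S hv, ?_, ?_⟩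
    · intro h
      apply huv0
      rw [h]; simp
    · intro χ
      rw [sub_neg_eq_add]; exact huvD χ
  have hd' : ∀ χ, B χ (u' - u) = 0 := fun χ => by
    rw [← neg_sub, map_neg, hd, neg_zero]
  have e : ∀ χ, B χ u' = B χ u := fun χ => by
    have := hd χ
    rw [map_sub, sub_eq_zero] at this
    exact this.symm
  -- Step 4
  have star : ∀ y ψ φ₀, y ≠ 0 → A y ψ → B ψ u ≠ 0 → A u φ₀ → φ₀ ≠ 0 → B φ₀ y ≠ 0 := by
    intro y ψ φ₀ h0 h1 h2 h3 h4 h5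
    exact hdne (ndl_step3 S hs hu' hd h0 h1 h2 h3 h4 h5)
  have star' : ∀ y ψ φ₀, y ≠ 0 → A y ψ → B ψ u' ≠ 0 → A u' φ₀ → φ₀ ≠ 0 → B φ₀ y ≠ 0 := by
    intro y ψ φ₀ h0 h1 h2 h3 h4 h5
    exact hdne (ndl_step3 S hs hu hd' h0 h1 h2 h3 h4 h5).symm
  obtain ⟨hu0, φ, hφ, hAφ⟩ := hu
  obtain ⟨hu'0, φ', hφ', hAφ'⟩ := hu'
  have key : ∀ y, Pt A y → (B φ y = 0 ↔ B φ' y = 0) := by
    rintro y ⟨hy0, ψ', hψ', hAy⟩
    constructor
    · intro h
      by_contra h'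
      obtain ⟨ψ, hψ1, hψ2⟩ := hs u' y φ' ψ' hu'0 hAφ' h' hAy hψ'
      exact star y ψ φ hy0 hψ1 (by rw [← e]; exact hψ2) hAφ hφ h
    · intro h
      by_contra h'
      obtain ⟨ψ, hψ1, hψ2⟩ := hs u y φ ψ' hu0 hAφ h' hAy hψ'
      exact star' y ψ φ' hy0 hψ1 (by rw [e]; exact hψ2) hAφ' hφ' h
  -- Step 5
  have htop := top_of_pt S (ptRad S hadd) (fun x hx => ⟨x, 0, Or.inr hx, by simp, by simp⟩)
  have key2 : ∀ x, (B φ x = 0 ↔ B φ' x = 0) := by
    intro x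
    have hx : x ∈ ptRad S hadd := by rw [htop]; trivial
    obtain ⟨a, d, ha, hdd, rfl⟩ := hx
    rw [map_add, map_add, hdd, hdd, add_zero, add_zero]
    rcases ha with rfl | ha
    · simp
    · exact key a ha
  obtain ⟨x₀, hx₀⟩ : ∃ x₀, B φ x₀ ≠ 0 := by
    by_contra hcon
    push Not at hcon
    exact hφ (S.r1r u φ hAφ hu0 hcon)
  have hx₀' : B φ' x₀ ≠ 0 := fun h => hx₀ ((key2 x₀).mpr h)
  set c : ZMod p := B φ' x₀ / B φ x₀ with hc
  have hc0 : c ≠ 0 := div_ne_zero hx₀' hx₀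
  have hprop : ∀ x, B φ' x = c * B φ x := by
    intro x
    have hz : B φ (x - (B φ x / B φ x₀) • x₀) = 0 := by
      rw [map_sub, map_smul, smul_eq_mul, div_mul_cancel₀ _ hx₀, sub_self]
    have hz' := (key2 _).mp hz
    rw [map_sub, map_smul, smul_eq_mul, sub_eq_zero] at hz'
    rw [hz', hc]
    field_simp
  have := S.l1 u (c • φ) u' φ' (S.smulr c hAφ) hAφ' hu0 (smul_ne_zero hc0 hφ) hd' (fun w => by
    rw [map_sub, LinearMap.sub_apply, map_smul, LinearMap.smul_apply, smul_eq_mul, hprop, sub_self])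
  exact hdne this.1.symm

end Cfsg.Agent.Lib.Helper34.Mc
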