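import Mathlib
import Cfsg.Agent.Lib.Helper94.SLGen

set_option autoImplicit false

/-! Piece SLabs (`mem_of_det_one`) of helper83's McLaughlin farm (S5075). -/

namespace Cfsg.Agent.Lib.Helper34.Mc

open Module

/-- conjugation by a linear equivalence, as a monoid hom between automorphism groups. -/
def conjHom {F W W' : Type*} [Field F] [AddCommGroup W] [Module F W] [AddCommGroup W']
    [Module F W'] (E : W ≃ₗ[F] W') : (W' ≃ₗ[F] W') →* (W ≃ₗ[F] W) where
  toFun g := E.trans (g.trans E.symm)
  map_one' := by ext; simp
  map_mul' a b := by ext; simp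

theorem mem_of_det_one {F W : Type*} [Field F] [AddCommGroup W] [Module F W] [FiniteDimensional F W]
    (G : Subgroup (W ≃ₗ[F] W))
    (hG : ∀ (f : Dual F W) (v : W) (h : f v = 0), LinearEquiv.transvection h ∈ G)
    (e : W ≃ₗ[F] W) (he : LinearMap.det (e : W →ₗ[F] W) = 1) : e ∈ G := by
  rcases Nat.lt_or_ge (finrank F W) 2 with hn | hn
  · have : e = 1 := by
      rcases Nat.lt_or_ge (finrank F W) 1 with h0 | h1
      · have : Subsingleton W := (Module.finrank_zero_iff (R := F)).mp (by omega)
        ext x
        exact Subsingleton.elim _ _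
      · have h1 : finrank F W = 1 := by omega
        obtain ⟨v, hv, hspan⟩ := finrank_eq_one_iff'.mp h1
        obtain ⟨c, hc⟩ := hspan (e v)
        have hall : (e : W →ₗ[F] W) = c • LinearMap.id := by
          ext w
          obtain ⟨d, rfl⟩ := hspan w
          simp only [LinearEquiv.coe_coe, map_smul, LinearMap.smul_apply, LinearMap.id_apply]
          rw [← hc, smul_comm]
        rw [hall, LinearMap.det_smul, h1, pow_one, LinearMap.det_id, mul_one] at he
        ext w
        have := congrArg (fun f : W →ₗ[F] W => f w) hall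
        simpa [he] using this
    rw [this]
    exact G.one_mem
  · set n := finrank F W with hndef
    let E : W ≃ₗ[F] (Fin n → F) := (Module.finBasis F W).equivFun
    haveI : Nontrivial (Fin n) := Fin.nontrivial_iff_two_le.mpr hn
    have hG' : ∀ (f : Dual F (Fin n → F)) (v : Fin n → F) (h : f v = 0),
        LinearEquiv.transvection h ∈ G.comap (conjHom E) := by
      intro f v h
      rw [Subgroup.mem_comap]
      have h' : (f ∘ₗ (E : W →ₗ[F] (Fin n → F))) (E.symm v) = 0 := by simpa using h
      have : conjHom E (LinearEquiv.transvection h) = LinearEquiv.transvection h' := by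
        ext x
        simp [conjHom, LinearMap.transvection.apply]
      rw [this]
      exact hG _ _ h'
    set e' : (Fin n → F) ≃ₗ[F] (Fin n → F) := E.symm.trans (e.trans E) with he'
    have hdet : LinearMap.det (e' : (Fin n → F) →ₗ[F] (Fin n → F)) = 1 := by
      have : (e' : (Fin n → F) →ₗ[F] (Fin n → F)) =
          (E : W →ₗ[F] (Fin n → F)) ∘ₗ (e : W →ₗ[F] W) ∘ₗ (E.symm : (Fin n → F) →ₗ[F] W) := by
        ext x
        simp [he']
      rw [this, LinearMap.det_conj, he]
    have hmem := Cfsg.Agent.Lib.Helper94.mem_of_det_eq_one (G.comap (conjHom E)) hG'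
      ((Cfsg.Agent.Lib.Helper94.glEquiv (Fin n) F).symm e') (by
        rw [← Cfsg.Agent.Lib.Helper94.glEquiv_det, MulEquiv.apply_symm_apply, hdet])
    rw [MulEquiv.apply_symm_apply, Subgroup.mem_comap] at hmem
    have : conjHom E e' = e := by
      ext x
      simp [conjHom, he']
    rwa [this] at hmem

end Cfsg.Agent.Lib.Helper34.Mc
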