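import Cfsg.Agent.Lib.Helper1.QdFree
import Cfsg.Agent.Lib.Helper1.QdModel
import Cfsg.Agent.Lib.Helper1.SL2Free
import Cfsg.Agent.Lib.Helper85.SylIn
import Cfsg.Agent.Lib.Helper34.Radical

/-!
# `Qd(p)` in `p`-local subgroups

If `Qd(p)` is involved in `G` (`p` odd) then it is involved in the normalizer of a `p`-centric `p`-subgroup.
-/

set_option autoImplicit false

namespace Cfsg.Agent.Lib.Helper34

open Cfsg Matrix Cfsg.Agent.Lib.Helper33 Cfsg.Agent.Lib.Helper46.Qd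

theorem eq_one_of_pow_coprime' {X : Type*} [Group X] {x : X} {a b : ℕ} (ha : x ^ a = 1) (hb : x ^ b = 1)
    (h : a.Coprime b) : x = 1 := by
  have := (pow_gcd_eq_one (a := x) (m := a) (n := b)).mpr ⟨ha, hb⟩
  rwa [Nat.Coprime.gcd_eq_one h, pow_one] at this

theorem involves_of_le {G : Type*} [Group G] {X : Type*} [Group X] {A B : Subgroup G} (h : A ≤ B)
    (hA : Involves X ↥A) : Involves X ↥B := by
  obtain ⟨L, f, hf⟩ := exists_surjective_of_involves hA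
  let e := L.equivMapOfInjective (Subgroup.inclusion h) (Subgroup.inclusion_injective h)
  exact involves_of_surjective (L.map (Subgroup.inclusion h)) (f.comp e.symm.toMonoidHom)
    (hf.comp e.symm.surjective)

theorem ker_pow_eq_one (p : ℕ) [Fact p.Prime] (v : ↥(qdOver (ZMod p)))
    (hv : v ∈ (blkHom (ZMod p)).ker) : ∃ k : ℕ, v ^ p ^ k = 1 := by
  obtain ⟨k, hk⟩ := isPGroup_ker (F := ZMod p) p ⟨v, hv⟩
  exact ⟨k, congrArg Subtype.val hk⟩

/-- `Qd(p)` survives in the quotient by a normal `p'`-subgroup. -/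
theorem involves_qd_quotient {X : Type*} [Group X] [Finite X] {p : ℕ} [Fact p.Prime]
    (K : Subgroup X) [hK : K.Normal] (hcop : (Nat.card K).Coprime p)
    (h : Involves ↥(qd p) X) : Involves ↥(qd p) (X ⧸ K) := by
  have h' : Involves ↥(qdOver (ZMod p)) X := h
  obtain ⟨L, f, hf⟩ := exists_surjective_of_involves h'
  let mk' := QuotientGroup.mk' K
  let π₁ : ↥L →* ↥(L.map mk') := mk'.subgroupMap L
  have hπ₁ : Function.Surjective π₁ := mk'.subgroupMap_surjective L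
  have hpow : ∀ x : ↥L, (x : X) ∈ K → f x ^ Nat.card K = 1 := by
    intro x hx
    have h1 : (⟨x, hx⟩ : K) ^ Nat.card K = 1 := pow_card_eq_one'
    have h1' : (x : X) ^ Nat.card K = 1 := congrArg Subtype.val h1
    have h2 : x ^ Nat.card K = 1 := Subtype.ext h1'
    rw [← map_pow, h2, map_one]
  have hker : π₁.ker ≤ f.ker := by
    intro x hx
    have h1 : mk' (x : X) = 1 := congrArg Subtype.val (MonoidHom.mem_ker.1 hx)
    have hxK : (x : X) ∈ K := (QuotientGroup.eq_one_iff _).1 h1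
    have hd : f x ∈ (blkHom (ZMod p)).ker := by
      apply Cfsg.Agent.Lib.Helper1.QdFree.centralizer_ker_le
      rw [Subgroup.mem_centralizer_iff]
      intro v hv
      obtain ⟨y, rfl⟩ := hf v
      have hc1 : f (x * (y * x⁻¹ * y⁻¹)) ^ Nat.card K = 1 := by
        apply hpow
        exact K.mul_mem hxK (hK.conj_mem _ (K.inv_mem hxK) _)
      have hc2 : f (x * (y * x⁻¹ * y⁻¹)) ∈ (blkHom (ZMod p)).ker := by
        have h3 : f (x * (y * x⁻¹ * y⁻¹)) = (f x * f y * (f x)⁻¹) * (f y)⁻¹ := by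
          simp only [map_mul, map_inv]; group
        rw [h3]
        exact Subgroup.mul_mem _ ((blkHom (ZMod p)).normal_ker.conj_mem _ hv _) (Subgroup.inv_mem _ hv)
      obtain ⟨k, hk⟩ := ker_pow_eq_one p _ hc2
      have h4 := eq_one_of_pow_coprime' hc1 hk (hcop.pow_right k)
      have h5 : f x * f y * (f x)⁻¹ * (f y)⁻¹ = 1 := by
        rw [← h4]; simp only [map_mul, map_inv]; group
      calc f y * f x = (f x * f y * (f x)⁻¹ * (f y)⁻¹)⁻¹ * (f x * f y) := by group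
        _ = f x * f y := by rw [h5]; simp
    obtain ⟨k, hk⟩ := ker_pow_eq_one p _ hd
    exact MonoidHom.mem_ker.2 (eq_one_of_pow_coprime' (hpow x hxK) hk (hcop.pow_right k))
  exact involves_of_surjective (L.map mk') (π₁.liftOfSurjective hπ₁ ⟨f, hker⟩) (by
    intro s
    obtain ⟨x, rfl⟩ := hf s
    exact ⟨π₁ x, by rw [MonoidHom.liftOfRightInverse_comp_apply]; rfl⟩)

/-- **Transfer of `Qd(p)` along the same action.**  `H` maps onto `Qd(p)` with the normal `p`-subgroup `R` of `H` mapping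
onto `O_p(Qd(p))`; if every element of `H` induces on `R` the same automorphism as some element of `M ≥ R`, then `Qd(p)` is
involved in `M`. -/
theorem involves_qd_of_same_action {G : Type*} [Group G] [Finite G] {p : ℕ} [Fact p.Prime] (hp : p ≠ 2)
    (R H M : Subgroup G) (hRH : R ≤ H) (hRM : R ≤ M)
    (hHR : H ≤ Subgroup.normalizer (R : Set G))
    (π : ↥H →* ↥(qdOver (ZMod p))) (hπ : Function.Surjective π)
    (hπR : ∀ (r : G) (hr : r ∈ R), blk (π ⟨r, hRH hr⟩) = 1)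
    (hπV : ∀ c : Fin 2 → ZMod p, ∃ (r : G) (hr : r ∈ R), π ⟨r, hRH hr⟩ = mk 1 c)
    (hcov : ∀ h ∈ H, ∃ x ∈ M, ∀ r ∈ R, x * r * x⁻¹ = h * r * h⁻¹) :
    Involves ↥(qd p) ↥M := by
  have hconjR : ∀ (h : ↥H) (r : G), r ∈ R → (h : G) * r * (h : G)⁻¹ ∈ R := fun h r hr =>
    (Subgroup.mem_normalizer_iff.mp (hHR h.2) r).mp hr
  have hconjR' : ∀ (h : ↥H) (r : G), r ∈ R → (h : G)⁻¹ * r * (h : G) ∈ R := by
    intro h r hr
    have := hconjR h⁻¹ r hr
    simpa using this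
  let Y₀ : Subgroup G :=
    { carrier := {x | x ∈ M ∧ ∃ h : ↥H, ∀ r ∈ R, x * r * x⁻¹ = (h : G) * r * (h : G)⁻¹}
      one_mem' := ⟨M.one_mem, 1, fun r _ => by simp⟩
      mul_mem' := by
        rintro x₁ x₂ ⟨hx₁, h₁, hh₁⟩ ⟨hx₂, h₂, hh₂⟩
        refine ⟨M.mul_mem hx₁ hx₂, h₁ * h₂, fun r hr => ?_⟩
        calc x₁ * x₂ * r * (x₁ * x₂)⁻¹ = x₁ * (x₂ * r * x₂⁻¹) * x₁⁻¹ := by group
          _ = x₁ * ((h₂ : G) * r * (h₂ : G)⁻¹) * x₁⁻¹ := by rw [hh₂ r hr]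
          _ = (h₁ : G) * ((h₂ : G) * r * (h₂ : G)⁻¹) * (h₁ : G)⁻¹ := hh₁ _ (hconjR h₂ r hr)
          _ = ((h₁ * h₂ : ↥H) : G) * r * ((h₁ * h₂ : ↥H) : G)⁻¹ := by
              rw [Subgroup.coe_mul]; group
      inv_mem' := by
        rintro x ⟨hx, h, hh⟩
        refine ⟨M.inv_mem hx, h⁻¹, fun r hr => ?_⟩
        have h1 := hh _ (hconjR' h r hr)
        have h2 : x * ((h : G)⁻¹ * r * (h : G)) * x⁻¹ = r := by rw [h1]; group
        calc x⁻¹ * r * x⁻¹⁻¹ = x⁻¹ * (x * ((h : G)⁻¹ * r * (h : G)) * x⁻¹) * x := by rw [h2, inv_inv]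
          _ = (h : G)⁻¹ * r * (h : G) := by group
          _ = ((h⁻¹ : ↥H) : G) * r * ((h⁻¹ : ↥H) : G)⁻¹ := by rw [Subgroup.coe_inv, inv_inv] }
  have hWD : ∀ h₁ h₂ : ↥H, (∀ r ∈ R, (h₁ : G) * r * (h₁ : G)⁻¹ = (h₂ : G) * r * (h₂ : G)⁻¹) →
      blk (π h₁) = blk (π h₂) := by
    intro h₁ h₂ hh
    have h1 : π (h₂⁻¹ * h₁) ∈ (blkHom (ZMod p)).ker := by
      apply Cfsg.Agent.Lib.Helper1.QdFree.centralizer_ker_le
      rw [Subgroup.mem_centralizer_iff]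
      intro v hv
      have hv1 : blk v = 1 := hv
      obtain ⟨r, hr, hrv⟩ := hπV (tr v)
      have hv2 : v = π ⟨r, hRH hr⟩ := by rw [hrv, ← hv1, mk_blk_tr]
      rw [hv2, ← map_mul, ← map_mul]
      congr 1
      apply Subtype.ext
      show r * ((h₂ : G)⁻¹ * h₁) = (h₂ : G)⁻¹ * h₁ * r
      have := hh r hr
      calc r * ((h₂ : G)⁻¹ * h₁) = (h₂ : G)⁻¹ * ((h₂ : G) * r * (h₂ : G)⁻¹) * h₁ := by group
        _ = (h₂ : G)⁻¹ * ((h₁ : G) * r * (h₁ : G)⁻¹) * h₁ := by rw [this]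
        _ = (h₂ : G)⁻¹ * h₁ * r := by group
    have h2 : blk (π (h₂⁻¹ * h₁)) = 1 := h1
    rw [map_mul, blk_mul, map_inv, blk_inv] at h2
    exact (inv_mul_eq_one.mp h2).symm
  let hh : ↥Y₀ → ↥H := fun x => Classical.choose x.2.2
  have hhs : ∀ (x : ↥Y₀), ∀ r ∈ R, (x : G) * r * (x : G)⁻¹ = (hh x : G) * r * (hh x : G)⁻¹ :=
    fun x => Classical.choose_spec x.2.2
  have hkey : ∀ (x : ↥Y₀) (h : ↥H), (∀ r ∈ R, (x : G) * r * (x : G)⁻¹ = (h : G) * r * (h : G)⁻¹) →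
      blk (π (hh x)) = blk (π h) :=
    fun x h hx => hWD _ _ (fun r hr => (hhs x r hr).symm.trans (hx r hr))
  let σ₀ : ↥Y₀ →* SpecialLinearGroup (Fin 2) (ZMod p) := MonoidHom.mk' (fun x => blk (π (hh x))) (by
    intro x y
    rw [← blk_mul, ← map_mul]
    apply hkey
    intro r hr
    calc ((x * y : ↥Y₀) : G) * r * ((x * y : ↥Y₀) : G)⁻¹
        = (x : G) * ((y : G) * r * (y : G)⁻¹) * (x : G)⁻¹ := by rw [Subgroup.coe_mul]; group
      _ = (x : G) * ((hh y : G) * r * (hh y : G)⁻¹) * (x : G)⁻¹ := by rw [hhs y r hr]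
      _ = (hh x : G) * ((hh y : G) * r * (hh y : G)⁻¹) * (hh x : G)⁻¹ := hhs x _ (hconjR _ r hr)
      _ = ((hh x * hh y : ↥H) : G) * r * ((hh x * hh y : ↥H) : G)⁻¹ := by
          rw [Subgroup.coe_mul]; group)
  have hσ₀ : ∀ x : ↥Y₀, σ₀ x = blk (π (hh x)) := fun _ => rfl
  have hRY : ∀ r, r ∈ R → r ∈ Y₀ := fun r hr => ⟨hRM hr, ⟨r, hRH hr⟩, fun _ _ => rfl⟩
  have hσR : ∀ r (hr : r ∈ R), σ₀ ⟨r, hRY r hr⟩ = blk (π ⟨r, hRH hr⟩) :=
    fun r hr => hkey _ _ (fun _ _ => rfl)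
  let R₀ : Subgroup ↥Y₀ :=
    { carrier := {y | ∃ hy : (y : G) ∈ R, π ⟨y, hRH hy⟩ = 1}
      one_mem' := ⟨R.one_mem, map_one π⟩
      mul_mem' := by
        rintro a b ⟨ha, ha1⟩ ⟨hb, hb1⟩
        refine ⟨R.mul_mem ha hb, ?_⟩
        have : (⟨((a * b : ↥Y₀) : G), hRH (R.mul_mem ha hb)⟩ : ↥H) = ⟨a, hRH ha⟩ * ⟨b, hRH hb⟩ := rfl
        rw [this, map_mul, ha1, hb1, one_mul]
      inv_mem' := by
        rintro a ⟨ha, ha1⟩
        refine ⟨R.inv_mem ha, ?_⟩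
        have : (⟨((a⁻¹ : ↥Y₀) : G), hRH (R.inv_mem ha)⟩ : ↥H) = (⟨a, hRH ha⟩ : ↥H)⁻¹ := rfl
        rw [this, map_inv, ha1, inv_one] }
  have hπconj : ∀ (x : ↥Y₀) (r : G) (hr : r ∈ R), ∃ hr' : (x : G) * r * (x : G)⁻¹ ∈ R,
      π ⟨(x : G) * r * (x : G)⁻¹, hRH hr'⟩ = π (hh x) * π ⟨r, hRH hr⟩ * (π (hh x))⁻¹ := by
    intro x r hr
    have h1 := hhs x r hr
    have hr' : (x : G) * r * (x : G)⁻¹ ∈ R := h1 ▸ hconjR _ r hr
    refine ⟨hr', ?_⟩
    rw [← map_inv, ← map_mul, ← map_mul]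
    congr 1
    exact Subtype.ext h1
  have hR₀n : R₀.Normal := by
    refine ⟨fun r hr x => ?_⟩
    obtain ⟨hrR, hr1⟩ := hr
    obtain ⟨hr', h2⟩ := hπconj x r hrR
    exact ⟨hr', h2.trans (by rw [hr1]; simp)⟩
  let σ : ↥Y₀ ⧸ R₀ →* SpecialLinearGroup (Fin 2) (ZMod p) := QuotientGroup.lift R₀ σ₀ (by
    rintro r ⟨hrR, hr1⟩
    have h1 := hσR r hrR
    rw [hr1, blk_one] at h1
    exact h1)
  have hσmk : ∀ x : ↥Y₀, σ (QuotientGroup.mk' R₀ x) = σ₀ x := fun _ => rfl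
  let rr : (Fin 2 → ZMod p) → G := fun c => Classical.choose (hπV c)
  have hrrR : ∀ c, rr c ∈ R := fun c => (Classical.choose_spec (hπV c)).fst
  have hrrπ : ∀ c, π ⟨rr c, hRH (hrrR c)⟩ = mk 1 c := fun c => (Classical.choose_spec (hπV c)).snd
  have hmkeq : ∀ (a b : G) (ha : a ∈ R) (hb : b ∈ R), π ⟨a, hRH ha⟩ = π ⟨b, hRH hb⟩ →
      (QuotientGroup.mk' R₀) ⟨a, hRY a ha⟩ = (QuotientGroup.mk' R₀) ⟨b, hRY b hb⟩ := by
    intro a b ha hb hab
    apply QuotientGroup.eq.mpr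
    refine ⟨R.mul_mem (R.inv_mem ha) hb, ?_⟩
    have : (⟨a⁻¹ * b, hRH (R.mul_mem (R.inv_mem ha) hb)⟩ : ↥H) =
      (⟨a, hRH ha⟩ : ↥H)⁻¹ * ⟨b, hRH hb⟩ := rfl
    show π ⟨a⁻¹ * b, _⟩ = 1
    rw [this, map_mul, map_inv, hab, inv_mul_cancel]
  have hmkinj : ∀ (a b : G) (ha : a ∈ R) (hb : b ∈ R),
      (QuotientGroup.mk' R₀) ⟨a, hRY a ha⟩ = (QuotientGroup.mk' R₀) ⟨b, hRY b hb⟩ →
      π ⟨a, hRH ha⟩ = π ⟨b, hRH hb⟩ := by
    intro a b ha hb hab
    obtain ⟨h1, h2⟩ := QuotientGroup.eq.mp hab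
    have : (⟨a⁻¹ * b, hRH h1⟩ : ↥H) = (⟨a, hRH ha⟩ : ↥H)⁻¹ * ⟨b, hRH hb⟩ := rfl
    have h3 : π ⟨a⁻¹ * b, hRH h1⟩ = 1 := h2
    rw [this, map_mul, map_inv] at h3
    exact inv_mul_eq_one.mp h3
  have hinv : Involves ↥(qd p) (↥Y₀ ⧸ R₀) := by
    refine Cfsg.Agent.Lib.Helper1.QdModel.involves_qd_of_model hp σ ?_
      (fun c => (QuotientGroup.mk' R₀) ⟨rr c, hRY _ (hrrR c)⟩) ?_ ?_ ?_ ?_
    · intro s
      obtain ⟨h, hh'⟩ := hπ (mk s 0)
      obtain ⟨x, hxM, hx⟩ := hcov h h.2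
      refine ⟨QuotientGroup.mk' R₀ ⟨x, hxM, h, hx⟩, ?_⟩
      rw [hσmk, hσ₀, hkey ⟨x, hxM, h, hx⟩ h hx, hh', blk_mk]
    · intro c d hcd
      have h1 := hmkinj (rr c) (rr d) (hrrR c) (hrrR d) hcd
      rw [hrrπ, hrrπ] at h1
      have h2 := congrArg tr h1
      rwa [tr_mk, tr_mk] at h2
    · intro c d
      have h1 : π ⟨rr c * rr d, hRH (R.mul_mem (hrrR c) (hrrR d))⟩ = mk 1 (c + d) := by
        have : (⟨rr c * rr d, hRH (R.mul_mem (hrrR c) (hrrR d))⟩ : ↥H) =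
          ⟨rr c, hRH (hrrR c)⟩ * ⟨rr d, hRH (hrrR d)⟩ := rfl
        rw [this, map_mul, hrrπ, hrrπ, mk_mul_mk]
        congr 1
        · simp
        · simp [add_comm]
      have h2 := hmkeq (rr (c + d)) (rr c * rr d) (hrrR _) (R.mul_mem (hrrR c) (hrrR d))
        ((hrrπ _).trans h1.symm)
      rw [h2, ← map_mul]
      rfl
    · intro c
      rw [hσmk, hσR _ (hrrR c), hrrπ, blk_mk]
    · intro y c
      induction y using QuotientGroup.induction_on with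
      | H x =>
        obtain ⟨hr', h2⟩ := hπconj x (rr c) (hrrR c)
        have h3 : π ⟨(x : G) * rr c * (x : G)⁻¹, hRH hr'⟩ =
            mk 1 ((blk (π (hh x)) : Matrix (Fin 2) (Fin 2) (ZMod p)) *ᵥ c) := by
          rw [h2, hrrπ]
          apply ext'
          · rw [blk_mul, blk_mul, blk_inv, blk_mk, blk_mk]; simp
          · rw [tr_conj _ _ (blk_mk _ _), tr_mk, tr_mk]
        have h4 := hmkeq _ _ hr' (hrrR _) (h3.trans (hrrπ _).symm)
        exact h4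
  have hYM : Y₀ ≤ M := fun x hx => hx.1
  exact involves_of_le hYM (involves_quotient R₀ hinv)

/-- If `Qd(p)` is involved in `G` then it is involved in the normalizer of some `p`-centric `p`-subgroup. -/
theorem exists_centric_involves_qd {G : Type*} [Group G] [Finite G] {p : ℕ} [Fact p.Prime] (hp : p ≠ 2)
    (hinv : Involves ↥(qd p) G) :
    ∃ T : Subgroup G, IsPGroup p T ∧
      (∀ D : Subgroup G, IsPGroup p D → D ≤ Subgroup.centralizer (T : Set G) → D ≤ T) ∧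
      Involves ↥(qd p) ↥(Subgroup.normalizer (T : Set G)) := by
  have hinv' : Involves ↥(qdOver (ZMod p)) G := hinv
  obtain ⟨K₀, π, hπ⟩ := exists_surjective_of_involves hinv'
  obtain ⟨P₁, hP₁, hmap, hcov⟩ := Cfsg.Agent.Lib.Helper1.SL2Free.exists_pSubgroup_cover π hπ
    (blkHom (ZMod p)).ker (isPGroup_ker p)
  set R := P₁.map K₀.subtype with hR
  set H := (Subgroup.normalizer (P₁ : Set ↥K₀)).map K₀.subtype with hH
  have hRp : IsPGroup p R := hP₁.map _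
  have hHK : H ≤ K₀ := Subgroup.map_subtype_le _
  have hRH : R ≤ H := Subgroup.map_mono Subgroup.le_normalizer
  have hHR : H ≤ Subgroup.normalizer (R : Set G) := by
    rintro _ ⟨n, hn, rfl⟩
    exact Subgroup.le_normalizer_map _ ⟨n, hn, rfl⟩
  let πH : ↥H →* ↥(qdOver (ZMod p)) := π.comp (Subgroup.inclusion hHK)
  have hπHa : ∀ (n : ↥K₀) (hn : (n : G) ∈ H), πH ⟨n, hn⟩ = π n := fun n hn => rfl
  have hπH : Function.Surjective πH := by
    intro q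
    obtain ⟨n, hn, hnq⟩ := hcov q (by rw [Subgroup.normalizer_eq_top]; exact Subgroup.mem_top _)
    exact ⟨⟨n, ⟨n, hn, rfl⟩⟩, (hπHa n _).trans hnq⟩
  have hπR : ∀ (r : G) (hr : r ∈ R), blk (πH ⟨r, hRH hr⟩) = 1 := by
    rintro _ ⟨y, hy, rfl⟩
    have h1 : π y ∈ (blkHom (ZMod p)).ker := hmap ▸ Subgroup.mem_map_of_mem π hy
    exact h1
  have hπV : ∀ c : Fin 2 → ZMod p, ∃ (r : G) (hr : r ∈ R), πH ⟨r, hRH hr⟩ = mk 1 c := by
    intro c
    have h1 : mk 1 c ∈ (blkHom (ZMod p)).ker := by rw [MonoidHom.mem_ker, blkHom_apply, blk_mk]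
    rw [← hmap] at h1
    obtain ⟨y, hy, hyc⟩ := h1
    exact ⟨y, ⟨y, hy, rfl⟩, hyc⟩
  set C := Subgroup.centralizer (R : Set G) with hC
  have hCN : C ≤ Subgroup.normalizer (R : Set G) := Subgroup.centralizer_le_normalizer _
  obtain ⟨T, hRT, hTRC, hTsyl⟩ :=
    Cfsg.Agent.Lib.Helper85.exists_sylIn_ge (le_sup_left : R ≤ R ⊔ C) hRp
  have hTp : IsPGroup p T := hTsyl.isPGroup hTRC
  have hmemRC : ∀ g ∈ R ⊔ C, ∃ r ∈ R, ∃ c ∈ C, g = r * c := by
    intro g hg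
    have h1 : g ∈ ((R ⊔ C : Subgroup G) : Set G) := hg
    rw [Subgroup.coe_mul_of_right_le_normalizer_left R C hCN] at h1
    obtain ⟨r, hr, c, hc, rfl⟩ := Set.mem_mul.mp h1
    exact ⟨r, hr, c, hc, rfl⟩
  have hCconj : ∀ h ∈ Subgroup.normalizer (R : Set G), ∀ c ∈ C, h * c * h⁻¹ ∈ C := by
    intro h hh c hc
    rw [hC, Subgroup.mem_centralizer_iff]
    intro q hq
    have h3 : h⁻¹ * q * h ∈ R := by
      apply (Subgroup.mem_normalizer_iff.mp hh _).mpr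
      simpa [mul_assoc] using hq
    have h4 := Subgroup.mem_centralizer_iff.mp hc _ h3
    calc q * (h * c * h⁻¹) = h * ((h⁻¹ * q * h) * c) * h⁻¹ := by group
      _ = h * (c * (h⁻¹ * q * h)) * h⁻¹ := by rw [h4]
      _ = h * c * h⁻¹ * q := by group
  have hfr : ∀ h ∈ Subgroup.normalizer (R : Set G),
      ∃ x ∈ Subgroup.normalizer (T : Set G) ⊓ Subgroup.normalizer (R : Set G),
        ∀ r ∈ R, x * r * x⁻¹ = h * r * h⁻¹ := by
    intro h hh
    have hT' : T.map (MulAut.conj h).toMonoidHom ≤ R ⊔ C := by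
      rintro _ ⟨t, ht, rfl⟩
      obtain ⟨r, hr, c, hc, rfl⟩ := hmemRC t (hTRC ht)
      have h1 : h * (r * c) * h⁻¹ = (h * r * h⁻¹) * (h * c * h⁻¹) := by group
      show h * (r * c) * h⁻¹ ∈ R ⊔ C
      rw [h1]
      exact Subgroup.mul_mem _
        (Subgroup.mem_sup_left ((Subgroup.mem_normalizer_iff.mp hh r).mp hr))
        (Subgroup.mem_sup_right (hCconj h hh c hc))
    obtain ⟨g, hgRC, hg⟩ := hTsyl.exists_conj_le hT' (hTp.map _)
    have hghT : g * h ∈ Subgroup.normalizer (T : Set G) := by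
      apply mem_normalizer_of_conj_le
      rintro _ ⟨t, ht, rfl⟩
      have h1 := hg ⟨h * t * h⁻¹, ⟨t, ht, rfl⟩, rfl⟩
      have h2 : (MulAut.conj (g * h)).toMonoidHom t = (MulAut.conj g).toMonoidHom (h * t * h⁻¹) := by
        show g * h * t * (g * h)⁻¹ = g * (h * t * h⁻¹) * g⁻¹
        group
      rw [h2]
      exact h1
    obtain ⟨r, hr, c, hc, rfl⟩ := hmemRC g hgRC
    refine ⟨c * h, ⟨?_, ?_⟩, ?_⟩
    · have h1 : c * h = r⁻¹ * (r * c * h) := by group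
      rw [h1]
      exact Subgroup.mul_mem _ (Subgroup.inv_mem _ (Subgroup.le_normalizer (hRT hr))) hghT
    · exact Subgroup.mul_mem _ (hCN hc) hh
    · intro r' hr'
      have h1 : h * r' * h⁻¹ ∈ R := (Subgroup.mem_normalizer_iff.mp hh r').mp hr'
      have h2 := Subgroup.mem_centralizer_iff.mp hc _ h1
      calc c * h * r' * (c * h)⁻¹ = c * (h * r' * h⁻¹) * c⁻¹ := by group
        _ = (h * r' * h⁻¹) * c * c⁻¹ := by rw [h2]
        _ = h * r' * h⁻¹ := by group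
  refine ⟨T, hTp, ?_, ?_⟩
  · intro D hD hDT
    have hDRC : D ≤ R ⊔ C := (hDT.trans (Subgroup.centralizer_le hRT)).trans le_sup_right
    have hDTp : IsPGroup p (D ⊔ T : Subgroup G) :=
      hD.to_sup_of_normal_right' hTp (hDT.trans (Subgroup.centralizer_le_normalizer _))
    have h1 := Cfsg.Agent.Lib.Helper85.card_le_of_isPGroup (sup_le hDRC hTRC) hDTp
    rw [← (Cfsg.Agent.Lib.Helper85.sylIn_iff_card hTRC).mp hTsyl] at h1
    have h2 : T = D ⊔ T := eq_of_le_of_card_le le_sup_right h1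
    rw [h2]
    exact le_sup_left
  · have h1 := involves_qd_of_same_action hp R H
      (Subgroup.normalizer (T : Set G) ⊓ Subgroup.normalizer (R : Set G)) hRH
      (le_inf (hRT.trans Subgroup.le_normalizer) Subgroup.le_normalizer) hHR πH hπH hπR hπV
      (fun h hh => hfr h (hHR hh))
    exact involves_of_le inf_le_left h1

end Cfsg.Agent.Lib.Helper34
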